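import Cfsg.Agent.Spec.Aff

/-! Spectra given by lists. -/

set_option autoImplicit false

namespace Cfsg.Agent.Comp

theorem spec_prod_list {G H : Type*} [Group G] [Group H] {l1 l2 : List ℕ} (l3 : List ℕ)
    (h1 : Set.range (orderOf : G → ℕ) = {n | n ∈ l1})
    (h2 : Set.range (orderOf : H → ℕ) = {n | n ∈ l2})
    (h : (∀ a ∈ l1, ∀ b ∈ l2, Nat.lcm a b ∈ l3) ∧ ∀ c ∈ l3, ∃ a ∈ l1, ∃ b ∈ l2, c = Nat.lcm a b) :
    Set.range (orderOf : G × H → ℕ) = {n | n ∈ l3} := by
  ext n
  rw [Spec.mem_spec_prod, h1, h2]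
  constructor
  · rintro ⟨a, ha, b, hb, rfl⟩
    exact h.1 a ha b hb
  · intro hn
    exact h.2 n hn

/-- a direct factor that is solvable and nontrivial gives arbitrarily large isospectral groups -/
theorem exists_large_isospectral_prod {G H : Type*} [Group G] [Group H] [Finite G] [Finite H]
    [Nontrivial H] (hs : Group.IsSolvable H) (N : ℕ) :
    ∃ (K : Type) (_ : Group K) (_ : Fintype K), N < Fintype.card K ∧
      Set.range (orderOf : K → ℕ) = Set.range (orderOf : G × H → ℕ) := by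
  refine Spec.exists_large_isospectral (MonoidHom.fst G H).ker ?_ ?_ N
  · obtain ⟨x, hx⟩ := exists_ne (1 : H)
    intro e
    have : ((1, x) : G × H) ∈ (MonoidHom.fst G H).ker := rfl
    rw [e, Subgroup.mem_bot] at this
    exact hx (congrArg Prod.snd this)
  · refine Group.isSolvable_of_isSolvable_injective
      (f := (MonoidHom.snd G H).comp (MonoidHom.fst G H).ker.subtype) ?_
    rintro ⟨x, hx⟩ ⟨y, hy⟩ e
    have hx' : x.1 = 1 := hx
    have hy' : y.1 = 1 := hy
    exact Subtype.ext (Prod.ext (hx'.trans hy'.symm) e)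

end Cfsg.Agent.Comp
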